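import Mathlib
import Cfsg.Prelude.Def_Solvable
set_option linter.all false

/-!
Malnormal subgroups (subgroups meeting each conjugate by an outside element trivially, the trivial
group and the whole group allowed), the action on cosets, and the order of the Frobenius kernel.
-/

set_option autoImplicit false

namespace Cfsg.Agent.Solvable.Malnormal

open scoped Pointwise

variable {G : Type*} [Group G]

/-- `H` meets each of its conjugates by elements outside `H` trivially (`H = 1` and `H = G` are
allowed). -/
def IsMalnormal (H : Subgroup G) : Prop := ∀ g : G, g ∉ H → H ⊓ (MulAut.conj g • H) = ⊥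

theorem mem_conj_smul {H : Subgroup G} {g x : G} :
    x ∈ MulAut.conj g • H ↔ g⁻¹ * x * g ∈ H := by
  rw [Subgroup.mem_pointwise_smul_iff_inv_smul_mem, ← map_inv]
  simp [MulAut.smul_def]

theorem isMalnormal_iff {H : Subgroup G} :
    IsMalnormal H ↔ ∀ g x : G, x ∈ H → g⁻¹ * x * g ∈ H → x ≠ 1 → g ∈ H := by
  constructor
  · intro h g x hx hx' hx1
    by_contra hg
    have := h g hg
    have hm : x ∈ H ⊓ (MulAut.conj g • H) := ⟨hx, mem_conj_smul.2 hx'⟩
    rw [this, Subgroup.mem_bot] at hm
    exact hx1 hm
  · intro h g hg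
    rw [eq_bot_iff]
    rintro x ⟨hx, hx'⟩
    rw [Subgroup.mem_bot]
    by_contra hx1
    exact hg (h g x hx (mem_conj_smul.1 hx') hx1)

theorem isMalnormal_of_isFrobeniusComplement {H : Subgroup G}
    (h : Cfsg.IsFrobeniusComplement H) : IsMalnormal H := h.2.2

theorem mem_frobeniusKernel {H : Subgroup G} {x : G} :
    x ∈ Cfsg.frobeniusKernel H ↔ x = 1 ∨ ∀ g : G, g⁻¹ * x * g ∉ H := by
  constructor
  · rintro (h | h)
    · exact Or.inl h
    · exact Or.inr fun g hg => h g (mem_conj_smul.2 hg)
  · rintro (h | h)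
    · exact Or.inl h
    · exact Or.inr fun g hg => h g (mem_conj_smul.1 hg)

/-- `x` fixes the coset `gH` iff `g⁻¹ x g ∈ H`. -/
theorem smul_mk_eq_iff {H : Subgroup G} {x g : G} :
    x • (QuotientGroup.mk g : G ⧸ H) = QuotientGroup.mk g ↔ g⁻¹ * x * g ∈ H := by
  rw [MulAction.Quotient.smul_mk, eq_comm, QuotientGroup.eq]
  simp [mul_assoc]

/-- A nonidentity element fixes at most one coset of a malnormal subgroup. -/
theorem eq_of_smul_eq {H : Subgroup G} (h : IsMalnormal H) {x : G} (hx : x ≠ 1) {a b : G ⧸ H}
    (ha : x • a = a) (hb : x • b = b) : a = b := by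
  obtain ⟨a, rfl⟩ := QuotientGroup.mk_surjective a
  obtain ⟨b, rfl⟩ := QuotientGroup.mk_surjective b
  rw [smul_mk_eq_iff] at ha hb
  rw [QuotientGroup.eq]
  refine isMalnormal_iff.1 h (a⁻¹ * b) (a⁻¹ * x * a) ha ?_ ?_
  · simpa [mul_assoc] using hb
  · intro hx1
    apply hx
    have : x = a * (a⁻¹ * x * a) * a⁻¹ := by group
    rw [this, hx1]; simp

theorem mem_frobeniusKernel_iff_smul {H : Subgroup G} {x : G} :
    x ∈ Cfsg.frobeniusKernel H ↔ x = 1 ∨ ∀ a : G ⧸ H, x • a ≠ a := by
  rw [mem_frobeniusKernel]
  constructor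
  · rintro (h | h)
    · exact Or.inl h
    · refine Or.inr fun a ha => ?_
      obtain ⟨a, rfl⟩ := QuotientGroup.mk_surjective a
      exact h a (smul_mk_eq_iff.1 ha)
  · rintro (h | h)
    · exact Or.inl h
    · exact Or.inr fun g hg => h _ (smul_mk_eq_iff.2 hg)

/-- The Frobenius kernel (as a set) of a malnormal subgroup has order the index. -/
theorem card_frobeniusKernel [Finite G] {H : Subgroup G} (h : IsMalnormal H) :
    Nat.card (Cfsg.frobeniusKernel H) = H.index := by
  classical
  have := Fintype.ofFinite G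
  have := Fintype.ofFinite (G ⧸ H)
  have hsum : ∑ x : G, Fintype.card (MulAction.fixedBy (G ⧸ H) x) = Fintype.card G := by
    rw [MulAction.sum_card_fixedBy_eq_card_orbits_mul_card_group]
    have : Fintype.card (Quotient (MulAction.orbitRel G (G ⧸ H))) = 1 := by
      rw [Fintype.card_eq_one_iff_nonempty_unique]
      obtain ⟨hu⟩ := (MulAction.pretransitive_iff_unique_quotient_of_nonempty G (G ⧸ H)).1
        inferInstance
      exact ⟨hu⟩
    rw [this, one_mul]
  have hpt : ∀ x : G, Fintype.card (MulAction.fixedBy (G ⧸ H) x) +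
      (if x ∈ Cfsg.frobeniusKernel H then 1 else 0) =
      1 + (if x = 1 then Fintype.card (G ⧸ H) else 0) := by
    intro x
    by_cases hx : x = 1
    · subst hx
      have h1 : (1 : G) ∈ Cfsg.frobeniusKernel H := Or.inl rfl
      rw [if_pos h1, if_pos rfl, add_comm]
      congr 1
      refine Fintype.card_congr ?_
      refine (Equiv.setCongr ?_).trans (Equiv.Set.univ _)
      ext a; simp
    · rw [if_neg hx]
      by_cases hk : x ∈ Cfsg.frobeniusKernel H
      · rw [if_pos hk]
        rcases mem_frobeniusKernel_iff_smul.1 hk with hk' | hk'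
        · exact absurd hk' hx
        · have : Fintype.card (MulAction.fixedBy (G ⧸ H) x) = 0 := by
            rw [Fintype.card_eq_zero_iff]
            exact ⟨fun a => hk' a.1 a.2⟩
          rw [this]
      · rw [if_neg hk]
        rw [mem_frobeniusKernel_iff_smul] at hk
        push Not at hk
        obtain ⟨a, ha⟩ := hk.2
        have : Fintype.card (MulAction.fixedBy (G ⧸ H) x) = 1 := by
          rw [Fintype.card_eq_one_iff]
          exact ⟨⟨a, ha⟩, fun b => Subtype.ext (eq_of_smul_eq h hx b.2 ha)⟩
        rw [this]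
  have hs := Finset.sum_congr (rfl : (Finset.univ : Finset G) = Finset.univ) (fun x _ => hpt x)
  rw [Finset.sum_add_distrib, Finset.sum_add_distrib, hsum] at hs
  simp only [Finset.sum_ite_eq', Finset.mem_univ, if_true, Finset.sum_const, Finset.card_univ,
    smul_eq_mul, mul_one, Finset.sum_boole] at hs
  rw [Subgroup.index_eq_card, Nat.card_eq_fintype_card, Nat.card_eq_fintype_card,
    Fintype.card_subtype]
  simpa using hs

end Cfsg.Agent.Solvable.Malnormal
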