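import Mathlib
import Cfsg.Prelude.Def_Solvable
import Cfsg.Agent.Solvable.FrobeniusKernel
import Cfsg.Agent.Solvable.FixedPointFree
import Cfsg.Agent.S0589
set_option linter.all false

-- part: Solvable/FrobeniusNoFPF
section
/-!
A Frobenius group does not act fixed-point-freely on a nontrivial finite abelian group.
-/

set_option autoImplicit false

namespace Cfsg.Agent.Solvable.FrobeniusNoFPF

open Cfsg.Agent.Solvable.FrobeniusKernel

/-- The partition argument: if `B` is a Frobenius complement of the finite group `A` whose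
Frobenius kernel is a subgroup, and `A` acts fixed-point-freely on the abelian group `V`, then
`v ^ B.index = 1` for all `v`. -/
theorem pow_index_eq_one {A V : Type*} [Group A] [Finite A] [CommGroup V] (φ : A →* MulAut V)
    (h : ∀ a : A, a ≠ 1 → ∀ v : V, φ a v = v → v = 1)
    (B N : Subgroup A) (hB : Cfsg.IsFrobeniusComplement B)
    (hN : (N : Set A) = Cfsg.frobeniusKernel B) (v : V) : v ^ B.index = 1 := by
  classical
  cases nonempty_fintype A
  obtain ⟨b, hb, hb1⟩ := B.bot_or_exists_ne_one.resolve_left hB.1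
  have hNbot : N ≠ ⊥ := by
    intro h0
    have h1 : Nat.card (N : Set A) = B.index := by rw [hN]; exact card_kernel hB
    have h2 : Nat.card (N : Set A) = Nat.card N := rfl
    rw [h2, h0, Subgroup.card_bot] at h1
    exact hB.2.1 (Subgroup.index_eq_one.1 h1.symm)
  have hall : ∏ a : A, φ a v = 1 :=
    FixedPointFree.prod_eq_one φ (b := b) (h b hb1) v
  have hNprod : ∏ n : N, φ (n : A) v = 1 := by
    obtain ⟨c, hc⟩ := (Subgroup.ne_bot_iff_exists_ne_one).1 hNbot
    exact FixedPointFree.prod_eq_one (φ.comp N.subtype) (b := c) (h (c : A) (by simpa using hc)) v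
  have hBprod : ∀ w : V, ∏ x : {x : A // x ∈ B ∧ x ≠ 1}, φ (x : A) w = w⁻¹ := by
    intro w
    have h1 : ∏ x : B, φ (x : A) w = 1 :=
      FixedPointFree.prod_eq_one (φ.comp B.subtype) (b := (⟨b, hb⟩ : B)) (h b hb1) w
    rw [← Finset.prod_subtype (Finset.univ.filter (· ∈ B)) (by simp) (fun x : A => φ x w),
      ← Finset.prod_erase_mul _ _ (a := (1 : A)) (by simp), map_one] at h1
    rw [← Finset.prod_subtype ((Finset.univ.filter (· ∈ B)).erase 1)
      (by intro x; simp [and_comm]) (fun x : A => φ x w)]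
    exact eq_inv_of_mul_eq_one_left h1
  -- the product over the elements outside of `N`
  have hout : ∏ x : {x : A // ¬ x ∈ N}, φ (x : A) v = (v ^ B.index)⁻¹ := by
    have hset : ∀ x : A, x ∉ N ↔ x ∈ (Cfsg.frobeniusKernel B)ᶜ := by
      intro x
      rw [← hN]; rfl
    rw [← Finset.prod_subtype (Finset.univ.filter (· ∉ N)) (by simp) (fun x : A => φ x v),
      Finset.prod_subtype (p := (· ∈ (Cfsg.frobeniusKernel B)ᶜ)) (Finset.univ.filter (· ∉ N))
        (by intro x; simp only [Finset.mem_filter, Finset.mem_univ, true_and]; exact hset x)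
        (fun x : A => φ x v)]
    rw [← (bijective_out B hB).prod_comp (fun x : ((Cfsg.frobeniusKernel B)ᶜ : Set A) => φ (x : A) v)]
    rw [Fintype.prod_prod_type]
    have hq : ∀ q : A ⧸ B, ∏ x : {x : A // x ∈ B ∧ x ≠ 1}, φ (q.out * (x : A) * (q.out)⁻¹) v = v⁻¹ := by
      intro q
      have h2 : ∀ x : {x : A // x ∈ B ∧ x ≠ 1}, φ (q.out * (x : A) * (q.out)⁻¹) v =
          φ q.out (φ (x : A) (φ (q.out)⁻¹ v)) := by
        intro x
        rw [map_mul, map_mul]; rfl
      rw [Finset.prod_congr rfl (fun x _ => h2 x), ← map_prod, hBprod, map_inv, ← MulAut.mul_apply,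
        ← map_mul, mul_inv_cancel, map_one]
      rfl
    rw [Finset.prod_congr rfl (fun q _ => hq q), Finset.prod_const, Finset.card_univ,
      Subgroup.index, Nat.card_eq_fintype_card, inv_pow]
  have hsplit := Fintype.prod_subtype_mul_prod_subtype (fun x : A => x ∈ N) (fun x : A => φ x v)
  rw [hall] at hsplit
  have h3 : ∏ x : {x : A // x ∈ N}, φ (x : A) v = 1 := by
    rw [← hNprod]
  rw [h3, hout, one_mul, inv_eq_one] at hsplit
  exact hsplit

/-- A Frobenius group (whose kernel is a subgroup) does not act fixed-point-freely on a nontrivial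
finite abelian group. -/
theorem subsingleton_of_fpf {A V : Type*} [Group A] [Finite A] [CommGroup V] [Finite V]
    (φ : A →* MulAut V)
    (h : ∀ a : A, a ≠ 1 → ∀ v : V, φ a v = v → v = 1)
    (B N : Subgroup A) (hB : Cfsg.IsFrobeniusComplement B)
    (hN : (N : Set A) = Cfsg.frobeniusKernel B) : ∀ v : V, v = 1 := by
  intro v
  have h1 := pow_index_eq_one φ h B N hB hN v
  have hcop := FixedPointFree.coprime_card φ h
  have h2 : orderOf v ∣ B.index := orderOf_dvd_of_pow_eq_one h1
  have h3 : orderOf v ∣ Nat.card A := h2.trans B.index_dvd_card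
  have h4 : orderOf v ∣ Nat.card V := orderOf_dvd_natCard v
  have h5 : orderOf v ∣ 1 := by
    rw [← Nat.coprime_iff_gcd_eq_one.1 hcop]
    exact Nat.dvd_gcd h3 h4
  exact orderOf_eq_one_iff.1 (Nat.dvd_one.1 h5)

end Cfsg.Agent.Solvable.FrobeniusNoFPF
end

-- part: Solvable/FrobeniusInvariant
section
/-!
Sylow subgroups of the Frobenius kernel normalised by the Frobenius complement (elementary; no
solvability hypothesis), and: a Frobenius complement has no proper subgroup which is a Frobenius
complement, given the Frobenius kernels.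
-/

set_option autoImplicit false

namespace Cfsg.Agent.Solvable.FrobeniusInvariant

open scoped Pointwise
open Cfsg.Agent.Solvable.FrobeniusKernel

/-- Elementary `f.p.f.` property. -/
theorem inf_centralizer_eq_bot {G : Type*} [Group G] {H N : Subgroup G}
    (hH : Cfsg.IsFrobeniusComplement H) (hdis : Disjoint N H) :
    ∀ a ∈ H, a ≠ 1 → N ⊓ Subgroup.centralizer {a} = ⊥ := by
  intro a ha ha1
  rw [eq_bot_iff]
  rintro x ⟨hx, hx'⟩
  exact hdis.le_bot ⟨hx, centralizer_le hH ha ha1 hx'⟩

/-- Let `H` be a Frobenius complement with normal complement `N`. For each Sylow subgroup `P` of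
`N`, some conjugate of `H` normalises `P`. -/
theorem exists_conj_le_normalizer {G : Type*} [Group G] [Finite G] (H N : Subgroup G) [N.Normal]
    (hH : Cfsg.IsFrobeniusComplement H) (hc : Subgroup.IsComplement' N H) {p : ℕ} [Fact p.Prime]
    (P : Sylow p N) :
    ∃ g : G, MulAut.conj g • H ≤
      Subgroup.normalizer (((P : Subgroup N).map N.subtype : Subgroup G) : Set G) := by
  set R : Subgroup G :=
    Subgroup.normalizer (((P : Subgroup N).map N.subtype : Subgroup G) : Set G) with hR
  have hsup : R ⊔ N = ⊤ := P.normalizer_sup_eq_top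
  have hcardN : Nat.card N = H.index := by
    have h1 := hc.card_mul_card
    have h2 := H.index_mul_card
    rw [← h1] at h2
    exact (Nat.eq_of_mul_eq_mul_right Nat.card_pos h2).symm
  have hidxN : N.index = Nat.card H := by
    have h1 := hc.card_mul_card
    have h2 := N.card_mul_index
    rw [← h1] at h2
    exact Nat.eq_of_mul_eq_mul_left Nat.card_pos h2
  have hcop : (Nat.card N).Coprime (Nat.card H) := by
    rw [hcardN]; exact coprime_index_card hH
  have hidx : (N.subgroupOf R).index = Nat.card H := by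
    have h1 : N.relIndex (R ⊔ N) = N.relIndex R := by rw [sup_comm]; exact Subgroup.relIndex_sup_left R N
    rw [hsup, Subgroup.relIndex_top_right] at h1
    rw [← hidxN, h1]; rfl
  have hcop2 : (Nat.card (N.subgroupOf R)).Coprime (N.subgroupOf R).index := by
    rw [hidx]
    refine Nat.Coprime.coprime_dvd_left ?_ hcop
    exact Subgroup.card_comap_dvd_of_injective N R.subtype R.subtype_injective
  obtain ⟨L', hL'⟩ := Subgroup.exists_right_complement'_of_coprime hcop2
  have hL'card : Nat.card L' = Nat.card H := by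
    have h1 := hL'.card_mul_card
    have h2 := (N.subgroupOf R).card_mul_index
    rw [← h1] at h2
    rw [← hidx]
    exact (Nat.eq_of_mul_eq_mul_left Nat.card_pos h2).symm
  have hLcard : Nat.card (L'.map R.subtype) = Nat.card H := by
    rw [← hL'card]
    exact Nat.card_congr (L'.equivMapOfInjective R.subtype R.subtype_injective).symm.toEquiv
  obtain ⟨x, hx⟩ := Cfsg.Agent.S0589.result H hH (L'.map R.subtype) hLcard.dvd
  refine ⟨x, ?_⟩
  have hxcard : Nat.card (MulAut.conj x • H : Subgroup G) = Nat.card H :=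
    Nat.card_congr (Subgroup.equivSMul (MulAut.conj x) H).symm.toEquiv
  have heq : L'.map R.subtype = MulAut.conj x • H := by
    apply Subgroup.eq_of_le_of_card_ge hx
    rw [hxcard, hLcard]
  rw [← heq]
  exact Subgroup.map_subtype_le L'

/-- Let `H` be a Frobenius complement with normal complement `N`. Then `H` normalises a nontrivial
abelian subgroup of `N`. -/
theorem exists_abelian_normalized {G : Type*} [Group G] [Finite G] (H N : Subgroup G) [N.Normal]
    (hH : Cfsg.IsFrobeniusComplement H) (hc : Subgroup.IsComplement' N H) :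
    ∃ V : Subgroup G, V ≤ N ∧ V ≠ ⊥ ∧ (∀ a ∈ V, ∀ b ∈ V, a * b = b * a) ∧
      H ≤ Subgroup.normalizer (V : Set G) := by
  have hcardN : Nat.card N ≠ 1 := by
    have h1 := hc.card_mul_card
    intro h0
    rw [h0, one_mul] at h1
    exact hH.2.1 (Subgroup.eq_top_of_card_eq H h1)
  obtain ⟨p, hp, hpN⟩ := Nat.exists_prime_and_dvd hcardN
  have : Fact p.Prime := ⟨hp⟩
  obtain ⟨P⟩ : Nonempty (Sylow p N) := inferInstance
  obtain ⟨g, hg⟩ := exists_conj_le_normalizer H N hH hc P
  set Q : Subgroup G := (P : Subgroup N).map N.subtype with hQ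
  have hQp : IsPGroup p Q := P.isPGroup'.map N.subtype
  have hPbot : (P : Subgroup N) ≠ ⊥ := by
    intro h0
    have := (P.dvd_card_of_dvd_card hpN)
    rw [h0, Subgroup.card_bot] at this
    exact hp.one_lt.ne' (Nat.dvd_one.1 this)
  have hQbot : Q ≠ ⊥ := by
    intro h0
    apply hPbot
    exact (Subgroup.map_eq_bot_iff_of_injective _ N.subtype_injective).1 h0
  have : Nontrivial Q := (Subgroup.nontrivial_iff_ne_bot Q).2 hQbot
  have : Nontrivial (Subgroup.center Q) := hQp.center_nontrivial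
  obtain ⟨z, hz⟩ := exists_ne (1 : Subgroup.center Q)
  have hz1 : (((z : Q) : G)) ≠ 1 := by
    intro h0
    apply hz
    apply Subtype.ext
    apply Subtype.ext
    exact h0
  have hzc : ((z : Q) : G) ∈ Subgroup.centralizer (Q : Set G) := by
    rw [Subgroup.mem_centralizer_iff]
    intro y hy
    have := Subgroup.mem_center_iff.1 z.2 ⟨y, hy⟩
    exact congrArg Subtype.val this
  -- the subgroup `V₀ = Q ⊓ C(Q)`
  set V₀ : Subgroup G := Q ⊓ Subgroup.centralizer (Q : Set G) with hV₀
  have hnorm : Subgroup.normalizer (Q : Set G) ≤ Subgroup.normalizer (V₀ : Set G) := by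
    intro x hx
    have hx' := Subgroup.mem_normalizer_iff.1 hx
    rw [Subgroup.mem_normalizer_iff]
    intro y
    have h1 : ∀ x ∈ Subgroup.normalizer (Q : Set G), ∀ y : G, y ∈ V₀ → x * y * x⁻¹ ∈ V₀ := by
      intro x hx y hy
      refine ⟨(Subgroup.mem_normalizer_iff.1 hx y).1 hy.1, ?_⟩
      have h2 := Subgroup.mem_centralizer_iff.1 hy.2
      refine Subgroup.mem_centralizer_iff.2 ?_
      intro w hw
      have h3 : x⁻¹ * w * x ∈ Q := (Subgroup.mem_normalizer_iff''.1 hx w).1 hw
      have h4 := h2 _ h3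
      calc w * (x * y * x⁻¹) = x * ((x⁻¹ * w * x) * y) * x⁻¹ := by group
        _ = x * (y * (x⁻¹ * w * x)) * x⁻¹ := by rw [h4]
        _ = x * y * x⁻¹ * w := by group
    constructor
    · exact h1 x hx y
    · intro hy
      have := h1 x⁻¹ ((Subgroup.normalizer (Q : Set G)).inv_mem hx) _ hy
      have e : x⁻¹ * (x * y * x⁻¹) * x⁻¹⁻¹ = y := by group
      rwa [e] at this
  refine ⟨MulAut.conj g⁻¹ • V₀, ?_, ?_, ?_, ?_⟩
  · intro y hy
    have hy' := mem_conj_smul.1 hy
    rw [inv_inv] at hy'
    have hyN : g * y * g⁻¹ ∈ N := by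
      have := Subgroup.map_subtype_le (P : Subgroup N) hy'.1
      exact this
    have := Subgroup.Normal.conj_mem (inferInstance : N.Normal) _ hyN g⁻¹
    have e : g⁻¹ * (g * y * g⁻¹) * g⁻¹⁻¹ = y := by group
    rwa [e] at this
  · intro h0
    have h1 : g⁻¹ * ((z : Q) : G) * g ∈ MulAut.conj g⁻¹ • V₀ := by
      rw [mem_conj_smul]
      have e : g⁻¹⁻¹ * (g⁻¹ * ((z : Q) : G) * g) * g⁻¹ = (z : Q) := by group
      rw [e]
      exact ⟨(z : Q).2, hzc⟩
    rw [h0, Subgroup.mem_bot] at h1
    apply hz1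
    have e : ((z : Q) : G) = g * (g⁻¹ * ((z : Q) : G) * g) * g⁻¹ := by group
    rw [e, h1]; group
  · intro a ha b hb
    have ha' := mem_conj_smul.1 ha
    have hb' := mem_conj_smul.1 hb
    have h1 := Subgroup.mem_centralizer_iff.1 hb'.2 _ ha'.1
    have h2 : g⁻¹⁻¹ * (a * b) * g⁻¹ = g⁻¹⁻¹ * (b * a) * g⁻¹ := by
      calc g⁻¹⁻¹ * (a * b) * g⁻¹ = (g⁻¹⁻¹ * a * g⁻¹) * (g⁻¹⁻¹ * b * g⁻¹) := by group
        _ = (g⁻¹⁻¹ * b * g⁻¹) * (g⁻¹⁻¹ * a * g⁻¹) := h1
        _ = g⁻¹⁻¹ * (b * a) * g⁻¹ := by group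
    exact mul_left_cancel (mul_right_cancel h2)
  · intro a ha
    have hga : g * a * g⁻¹ ∈ Subgroup.normalizer (V₀ : Set G) := by
      apply hnorm
      apply hg
      rw [mem_conj_smul]
      have e : g⁻¹ * (g * a * g⁻¹) * g = a := by group
      rwa [e]
    rw [Subgroup.mem_normalizer_iff] at hga ⊢
    intro v
    rw [mem_conj_smul, mem_conj_smul]
    have := hga (g⁻¹⁻¹ * v * g⁻¹)
    have e : g * a * g⁻¹ * (g⁻¹⁻¹ * v * g⁻¹) * (g * a * g⁻¹)⁻¹ = g⁻¹⁻¹ * (a * v * a⁻¹) * g⁻¹ := by
      group
    rwa [e] at this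

/-- A Frobenius complement of `G` contained in the subgroup `H`, not equal to it, is a Frobenius
complement of `H`. -/
theorem isFrobeniusComplement_subgroupOf {G : Type*} [Group G] {H H₀ : Subgroup G}
    (hH₀ : Cfsg.IsFrobeniusComplement H₀) (hle : H₀ ≤ H) (hne : H₀ ≠ H) :
    Cfsg.IsFrobeniusComplement (H₀.subgroupOf H) := by
  refine ⟨?_, ?_, ?_⟩
  · intro h0
    apply hH₀.1
    rw [Subgroup.subgroupOf_eq_bot] at h0
    rw [eq_bot_iff]
    intro x hx
    exact h0.le_bot ⟨hx, hle hx⟩
  · intro h0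
    rw [Subgroup.subgroupOf_eq_top] at h0
    exact hne (le_antisymm hle h0)
  · intro g hg
    rw [eq_bot_iff]
    rintro x ⟨hx, hx'⟩
    rw [Subgroup.mem_bot]
    have hx1 := Subgroup.mem_subgroupOf.1 hx
    have hx2 := Subgroup.mem_subgroupOf.1 (mem_conj_smul.1 hx')
    have := eq_one_of_mem hH₀ (g := (g : G)) (x := (x : G))
      (fun h => hg (Subgroup.mem_subgroupOf.2 h)) hx1 hx2
    exact Subtype.ext this

/-- A Frobenius complement contains properly no other Frobenius complement. -/
theorem eq_of_le {G : Type*} [Group G] [Finite G] (H H₀ N : Subgroup G) [N.Normal]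
    (hH : Cfsg.IsFrobeniusComplement H) (hc : Subgroup.IsComplement' N H)
    (hH₀ : Cfsg.IsFrobeniusComplement H₀) (hle : H₀ ≤ H)
    (hM : Cfsg.IsFrobeniusComplement (H₀.subgroupOf H) → ∃ M : Subgroup H,
      (M : Set H) = Cfsg.frobeniusKernel (H₀.subgroupOf H)) : H₀ = H := by
  by_contra hne
  have hB := isFrobeniusComplement_subgroupOf hH₀ hle hne
  obtain ⟨M, hM⟩ := hM hB
  obtain ⟨V, hVN, hVbot, hVcomm, hHV⟩ := exists_abelian_normalized H N hH hc
  have hfpf : ∀ a ∈ H, a ≠ 1 → V ⊓ Subgroup.centralizer {a} = ⊥ := by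
    intro a ha ha1
    rw [eq_bot_iff, ← inf_centralizer_eq_bot hH hc.disjoint a ha ha1]
    exact inf_le_inf_right _ hVN
  let _ : CommGroup V :=
    { (inferInstance : Group V) with
      mul_comm := fun a b => Subtype.ext (hVcomm a a.2 b b.2) }
  have h1 := FrobeniusNoFPF.subsingleton_of_fpf (FixedPointFree.conjHom H V hHV)
    (FixedPointFree.conjHom_fpf H V hHV hfpf) (H₀.subgroupOf H) M hB hM
  apply hVbot
  rw [eq_bot_iff]
  intro v hv
  exact Subgroup.mem_bot.2 (congrArg Subtype.val (h1 ⟨v, hv⟩))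

end Cfsg.Agent.Solvable.FrobeniusInvariant
end
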